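import Cfsg.Agent.H22.Tall.CfgNo1

/-!
# S2927: `A_6` (helper22)

`no1_alt_six`, `no2_alt_six`.
-/

set_option autoImplicit false
set_option linter.unusedSectionVars false

namespace Cfsg.Agent.H22.Tall

open Subgroup Cfsg
open Cfsg.Agent.H226.Tall

universe u v

/-! ### transport -/

section

variable {K : Type u} [Group K] [Finite K] {K' : Type v} [Group K'] [Finite K'] {S V V₁ V₂ : Subgroup K}
  {z t s t₁ s₁ t₂ s₂ : K}

theorem Half.map (h : Half S V z t s) (f : K ≃* K') :
    Half (S.map f.toMonoidHom) (V.map f.toMonoidHom) (f z) (f t) (f s) where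
  z_ne := fun h1 => h.z_ne (f.injective (h1.trans (map_one f).symm))
  zV := ⟨z, h.zV, rfl⟩
  sq := by
    rintro _ ⟨v, hv, rfl⟩
    show f v * f v = 1
    rw [← map_mul, h.sq v hv, map_one]
  card := by
    rw [← h.card]
    exact (Nat.card_congr (V.equivMapOfInjective f.toMonoidHom f.injective).toEquiv).symm
  le := map_mono h.le
  n := by
    rw [← map_equiv_normalizer_eq]
    exact map_mono h.n
  tn := by
    rw [← map_equiv_normalizer_eq]
    exact ⟨t, h.tn, rfl⟩
  t3 := by rw [← map_mul, ← map_mul, h.t3, map_one]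
  tz := by
    rw [← map_mul, ← map_mul]
    exact fun h1 => h.tz (f.injective h1)
  sS := ⟨s, h.sS, rfl⟩
  st := by rw [← map_mul, ← map_inv, ← map_mul, h.st, map_inv]
  max := by
    intro H h1 h2
    have h3 : (H.comap f.toMonoidHom).map f.toMonoidHom = H :=
      map_comap_eq_self_of_surjective f.surjective H
    rcases h.max (H.comap f.toMonoidHom) (map_le_iff_le_comap.1 h1) h2 with h4 | h4
    · left
      rw [← map_equiv_normalizer_eq, ← h4, h3]
    · right
      rw [h4] at h3
      rw [← h3]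
      exact map_top_of_surjective _ f.surjective

theorem Cfg.map (c : Cfg S V₁ V₂ z t₁ s₁ t₂ s₂) (f : K ≃* K') :
    Cfg (S.map f.toMonoidHom) (V₁.map f.toMonoidHom) (V₂.map f.toMonoidHom) (f z) (f t₁) (f s₁) (f t₂) (f s₂) where
  h1 := c.h1.map f
  h2 := c.h2.map f
  ne := fun h => c.ne (map_injective f.injective h)
  cardS := by
    rw [← c.cardS]
    exact (Nat.card_congr (S.equivMapOfInjective f.toMonoidHom f.injective).toEquiv).symm
  inv := by
    rintro _ ⟨s, hs, rfl⟩ h
    have h1 : s * s = 1 := f.injective (by rw [map_mul, map_one]; exact h)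
    exact (c.inv s hs h1).imp (fun h => ⟨s, h, rfl⟩) (fun h => ⟨s, h, rfl⟩)
  cz := by rw [← map_centralizer, c.cz]

end

/-! ### maximality -/

section

variable {K : Type u} [Group K] [Finite K] [IsSimpleGroup K]

theorem card_dvd_factorial {H : Subgroup K} (hH : H ≠ ⊤) : Nat.card K ∣ (H.index).factorial := by
  have h1 : H.normalCore = ⊥ := by
    rcases (inferInstance : H.normalCore.Normal).eq_bot_or_eq_top with h | h
    · exact h
    · exfalso
      apply hH
      rw [eq_top_iff, ← h]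
      exact H.normalCore_le
  have h2 : Function.Injective (MulAction.toPermHom K (K ⧸ H)) := by
    rw [← MonoidHom.ker_eq_bot_iff, ← normalCore_eq_ker]
    exact h1
  have h3 := card_dvd_of_injective _ h2
  rwa [Nat.card_perm] at h3

theorem card_360 (hK : Nat.card K = 360) {H : Subgroup K} (h : 24 ∣ Nat.card H) : Nat.card H = 24 ∨ H = ⊤ := by
  by_cases hH : H = ⊤
  · exact Or.inr hH
  left
  have h1 := card_dvd_factorial hH
  have h2 := H.card_mul_index
  rw [hK] at h1 h2
  obtain ⟨k, hk⟩ := h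
  have h3 : k * H.index = 15 := by
    have : 24 * (k * H.index) = 24 * 15 := by rw [← mul_assoc, ← hk, h2]
    exact Nat.eq_of_mul_eq_mul_left (by norm_num) this
  have h4 : H.index ∣ 15 := ⟨k, by rw [mul_comm]; exact h3.symm⟩
  have h5 : H.index ∈ Nat.divisors 15 := Nat.mem_divisors.2 ⟨h4, by norm_num⟩
  have h6 : Nat.divisors 15 = {1, 3, 5, 15} := by decide
  rw [h6] at h5
  simp only [Finset.mem_insert, Finset.mem_singleton] at h5
  rcases h5 with h5 | h5 | h5 | h5
  · exact absurd (index_eq_one.1 h5) hH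
  · rw [h5] at h1
    exact absurd h1 (by decide)
  · rw [h5] at h1
    exact absurd h1 (by decide)
  · rw [h5] at h3
    omega

theorem max_of_card (hK : ∀ H : Subgroup K, 24 ∣ Nat.card H → Nat.card H = 24 ∨ H = ⊤) {S V : Subgroup K} {t : K}
    (hS : Nat.card S = 8) (ht : orderOf t = 3) (hSn : S ≤ normalizer (V : Set K)) (htn : t ∈ normalizer (V : Set K))
    (hV : V ≠ ⊥) (hV' : V ≠ ⊤) : ∀ H : Subgroup K, S ≤ H → t ∈ H → H = normalizer (V : Set K) ∨ H = ⊤ := by
  have key : ∀ H : Subgroup K, S ≤ H → t ∈ H → 24 ∣ Nat.card H := by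
    intro H h1 h2
    have h3 : 8 ∣ Nat.card H := by
      rw [← hS]
      exact card_dvd_of_le h1
    have h4 : 3 ∣ Nat.card H := by
      rw [← ht, ← Nat.card_zpowers]
      exact card_dvd_of_le (zpowers_le.2 h2)
    omega
  have hN : Nat.card ↥(normalizer (V : Set K)) = 24 := by
    refine (hK _ (key _ hSn htn)).resolve_right ?_
    intro h
    have h1 : V.Normal := normalizer_eq_top_iff.1 h
    rcases h1.eq_bot_or_eq_top with h2 | h2
    · exact hV h2
    · exact hV' h2
  intro H h1 h2
  rcases hK H (key H h1 h2) with h3 | h3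
  · left
    have h4 : Nat.card ↥(H ⊓ normalizer (V : Set K) : Subgroup K) = 24 := by
      have h5 := Nat.le_of_dvd Nat.card_pos (key _ (le_inf h1 hSn) ⟨h2, htn⟩)
      have h6 : Nat.card ↥(H ⊓ normalizer (V : Set K) : Subgroup K) ≤ 24 := by
        rw [← h3]
        exact card_le_of_le inf_le_left
      omega
    have h5 : (H ⊓ normalizer (V : Set K) : Subgroup K) = H := eq_of_le_of_card_ge inf_le_left (by rw [h3, h4])
    have h6 : (H ⊓ normalizer (V : Set K) : Subgroup K) = normalizer (V : Set K) :=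
      eq_of_le_of_card_ge inf_le_right (by rw [hN, h4])
    rw [← h5, h6]
  · exact Or.inr h3

end

/-- the four-subgroup with the elements `1, a, b, a b` -/
def klein {K : Type*} [Group K] (a b : K) (ha : a * a = 1) (hb : b * b = 1) (hab : a * b = b * a) : Subgroup K where
  carrier := {1, a, b, a * b}
  one_mem' := Or.inl rfl
  mul_mem' := by
    have h1 : a * (a * b) = b := by rw [← mul_assoc, ha, one_mul]
    have h2 : b * (a * b) = a := by rw [hab, ← mul_assoc, hb, one_mul]
    have h3 : a * b * a = b := by rw [hab, mul_assoc, ha, mul_one]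
    have h4 : a * b * b = a := by rw [mul_assoc, hb, mul_one]
    have h5 : a * b * (a * b) = 1 := by rw [mul_assoc, h2, ha]
    rintro x y (rfl | rfl | rfl | rfl) (rfl | rfl | rfl | rfl) <;>
      simp [ha, hb, h1, h2, h3, h4, h5, ← hab]
  inv_mem' := by
    have hai : a⁻¹ = a := inv_eq_of_mul_eq_one_right ha
    have hbi : b⁻¹ = b := inv_eq_of_mul_eq_one_right hb
    rintro x (rfl | rfl | rfl | rfl)
    · exact Or.inl inv_one
    · exact Or.inr (Or.inl hai)
    · exact Or.inr (Or.inr (Or.inl hbi))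
    · refine Or.inr (Or.inr (Or.inr ?_))
      show (a * b)⁻¹ = a * b
      rw [mul_inv_rev, hai, hbi, hab]

theorem mem_klein {K : Type*} [Group K] {a b : K} {ha : a * a = 1} {hb : b * b = 1} {hab : a * b = b * a} {x : K} :
    x ∈ klein a b ha hb hab ↔ x = 1 ∨ x = a ∨ x = b ∨ x = a * b := Iff.rfl

theorem card_klein {K : Type*} [Group K] {a b : K} {ha : a * a = 1} {hb : b * b = 1} {hab : a * b = b * a} (h1 : a ≠ 1)
    (h2 : b ≠ 1) (h3 : a ≠ b) : Nat.card ↥(klein a b ha hb hab) = 4 := by
  classical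
  have h4 : a * b ≠ 1 := by
    intro h
    rw [mul_eq_one_iff_eq_inv, inv_eq_of_mul_eq_one_right hb] at h
    exact h3 h
  show ({1, a, b, a * b} : Set K).ncard = 4
  rw [Set.ncard_insert_of_notMem, Set.ncard_insert_of_notMem, Set.ncard_pair]
  · intro h
    exact h1 (mul_eq_right.1 h.symm)
  · rintro (h | h)
    · exact h3 h
    · exact h2 (mul_eq_left.1 h.symm)
  · rintro (h | h | h)
    · exact h1 h.symm
    · exact h2 h.symm
    · exact h4 h.symm

/-- `V = ⟨z, a⟩` -/
theorem half_of {K : Type u} [Group K] [Finite K] [IsSimpleGroup K]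
    (hK : ∀ H : Subgroup K, 24 ∣ Nat.card H → Nat.card H = 24 ∨ H = ⊤) {z a t s : K}
    (hz : z * z = 1) (ha : a * a = 1) (hza : z * a = a * z) (hz1 : z ≠ 1) (ha1 : a ≠ 1) (hne : z ≠ a)
    (hS : Nat.card ↥(centralizer ({z} : Set K)) = 8)
    (hn : ∀ g ∈ centralizer ({z} : Set K), g * a * g⁻¹ = a ∨ g * a * g⁻¹ = z * a)
    (htz : t * z * t⁻¹ = a) (hta : t * a * t⁻¹ = z * a) (t3 : t * t * t = 1) (hs : s * z = z * s)
    (st : s * t * s⁻¹ = t⁻¹) :
    Half (centralizer ({z} : Set K)) (klein z a hz ha hza) z t s := by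
  have hai : a⁻¹ = a := inv_eq_of_mul_eq_one_right ha
  have hzi : z⁻¹ = z := inv_eq_of_mul_eq_one_right hz
  have hfin : ∀ {V : Subgroup K} {g : K}, (∀ v ∈ V, g * v * g⁻¹ ∈ V) → g ∈ normalizer (V : Set K) := by
    intro V g h
    rw [mem_normalizer_iff_map_conj_eq]
    refine eq_of_le_of_card_ge ?_ ?_
    · rintro y ⟨w, hw, rfl⟩
      exact h w hw
    · rw [Nat.card_congr (V.equivMapOfInjective (MulAut.conj g).toMonoidHom (MulAut.conj g).injective).toEquiv]
      rfl
  have hcard : Nat.card ↥(klein z a hz ha hza) = 4 := card_klein hz1 ha1 hne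
  have htne : t ≠ 1 := by
    rintro rfl
    apply hne
    rw [← htz]
    group
  have ht : orderOf t = 3 := by
    refine orderOf_eq_prime ?_ htne
    rw [← t3, pow_succ, pow_two]
  have hn1 : centralizer ({z} : Set K) ≤ normalizer (klein z a hz ha hza : Set K) := by
    intro g hg
    have hgz : g * z * g⁻¹ = z := mul_inv_eq_iff_eq_mul.2 (mem_centralizer_singleton_iff.1 hg)
    apply hfin
    have hga := hn g hg
    intro v hv
    rw [mem_klein] at hv ⊢
    rcases hv with rfl | rfl | rfl | rfl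
    · left; group
    · right; left; exact hgz
    · rcases hga with h | h <;> rw [h] <;> simp
    · have h1 : g * (z * a) * g⁻¹ = (g * z * g⁻¹) * (g * a * g⁻¹) := by group
      rw [h1, hgz]
      rcases hga with h | h
      · rw [h]; simp
      · rw [h, ← mul_assoc, hz, one_mul]; simp
  have htn1 : t ∈ normalizer (klein z a hz ha hza : Set K) := by
    apply hfin
    intro v hv
    rw [mem_klein] at hv ⊢
    rcases hv with rfl | rfl | rfl | rfl
    · left; group
    · right; right; left; exact htz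
    · right; right; right; exact hta
    · right; left
      have h1 : t * (z * a) * t⁻¹ = (t * z * t⁻¹) * (t * a * t⁻¹) := by group
      rw [h1, htz, hta, hza, ← mul_assoc, ha, one_mul]
  refine
    { z_ne := hz1
      zV := Or.inr (Or.inl rfl)
      sq := ?_
      card := hcard
      le := ?_
      n := hn1
      tn := htn1
      t3 := t3
      tz := ?_
      sS := mem_centralizer_singleton_iff.2 hs
      st := st
      max := ?_ }
  · intro v hv
    rw [mem_klein] at hv
    rcases hv with rfl | rfl | rfl | rfl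
    · exact one_mul 1
    · exact hz
    · exact ha
    · calc z * a * (z * a) = z * a * (a * z) := by rw [hza]
        _ = z * (a * a) * z := by group
        _ = 1 := by rw [ha, mul_one, hz]
  · intro v hv
    rw [mem_klein] at hv
    rw [mem_centralizer_singleton_iff]
    rcases hv with rfl | rfl | rfl | rfl
    · rw [one_mul, mul_one]
    · rfl
    · exact hza.symm
    · rw [mul_assoc, ← hza]
  · intro h
    rw [← mul_inv_eq_iff_eq_mul] at h
    exact hne (h.symm.trans htz)
  · refine max_of_card hK hS ht hn1 htn1 ?_ ?_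
    · intro h
      rw [h] at hcard
      rw [card_bot] at hcard
      exact absurd hcard (by norm_num)
    · intro h
      have h1 : Nat.card ↥(centralizer ({z} : Set K)) ≤ Nat.card ↥(klein z a hz ha hza) := by
        rw [h]
        exact card_le_of_le le_top
      rw [hS, hcard] at h1
      exact absurd h1 (by norm_num)

/-! ### `A_6` -/

open Equiv Equiv.Perm

/-- `A_6` -/
abbrev A6 : Type := ↥(alternatingGroup (Fin 6))

instance : IsSimpleGroup A6 := alternatingGroup.isSimpleGroup (by simp)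

theorem card_A6 : Nat.card A6 = 360 := by
  rw [nat_card_alternatingGroup, Nat.card_eq_fintype_card, Fintype.card_fin]
  rfl

/-- `(0 1)(2 3)` -/
def z6 : A6 := ⟨swap 0 1 * swap 2 3, mem_alternatingGroup.2 (by decide)⟩

/-- `(0 2)(1 3)` -/
def a6 : A6 := ⟨swap 0 2 * swap 1 3, mem_alternatingGroup.2 (by decide)⟩

/-- `(0 1)(4 5)` -/
def e6 : A6 := ⟨swap 0 1 * swap 4 5, mem_alternatingGroup.2 (by decide)⟩

/-- `(2 3)(4 5)` -/
def f6 : A6 := ⟨swap 2 3 * swap 4 5, mem_alternatingGroup.2 (by decide)⟩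

/-- `(1 2 3)` -/
def t6 : A6 := ⟨swap 1 2 * swap 2 3, mem_alternatingGroup.2 (by decide)⟩

/-- `(0 4 2)(1 5 3)` -/
def u6 : A6 := ⟨(swap 0 4 * swap 4 2) * (swap 1 5 * swap 5 3), mem_alternatingGroup.2 (by decide)⟩

theorem zz6 : z6 * z6 = 1 := by decide

theorem aa6 : a6 * a6 = 1 := by decide

theorem ee6 : e6 * e6 = 1 := by decide

theorem za6 : z6 * a6 = a6 * z6 := by decide

theorem ze6 : z6 * e6 = e6 * z6 := by decide

set_option maxRecDepth 100000 in
theorem card_S6 : Nat.card ↥(centralizer ({z6} : Set A6)) = 8 := by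
  have h1 : (Finset.univ.filter (fun g : A6 => g * z6 = z6 * g)).card = 8 := by decide +kernel
  have h2 : ((centralizer ({z6} : Set A6) : Subgroup A6) : Set A6) =
      ((Finset.univ.filter (fun g : A6 => g * z6 = z6 * g) : Finset A6) : Set A6) := by
    ext g
    simp only [SetLike.mem_coe, mem_centralizer_singleton_iff, Finset.coe_filter, Finset.mem_univ, true_and,
      Set.mem_ofPred_eq]
  show ((centralizer ({z6} : Set A6) : Subgroup A6) : Set A6).ncard = 8
  rw [h2, Set.ncard_coe_finset, h1]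

set_option maxRecDepth 100000 in
theorem conj_a6 : ∀ g : A6, g * z6 = z6 * g → (g * a6 * g⁻¹ = a6 ∨ g * a6 * g⁻¹ = z6 * a6) ∧
    (g * e6 * g⁻¹ = e6 ∨ g * e6 * g⁻¹ = z6 * e6) := by decide +kernel

set_option maxRecDepth 100000 in
theorem inv_6' : ∀ g : A6, g * z6 = z6 * g → g * g = 1 → g ∈ [1, z6, a6, z6 * a6, e6, z6 * e6] := by decide +kernel

theorem inv_6 (g : A6) (h1 : g * z6 = z6 * g) (h2 : g * g = 1) :
    (g = 1 ∨ g = z6 ∨ g = a6 ∨ g = z6 * a6) ∨ (g = 1 ∨ g = z6 ∨ g = e6 ∨ g = z6 * e6) := by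
  have h3 := inv_6' g h1 h2
  simp only [List.mem_cons, List.not_mem_nil, or_false] at h3
  tauto

theorem cfg_A6 : Cfg (centralizer ({z6} : Set A6)) (klein z6 a6 zz6 aa6 za6) (klein z6 e6 zz6 ee6 ze6) z6 t6 f6 u6 a6 where
  h1 := half_of (fun _ => card_360 card_A6) zz6 aa6 za6 (by decide) (by decide) (by decide) card_S6
    (fun g hg => (conj_a6 g (mem_centralizer_singleton_iff.1 hg)).1) (by decide) (by decide) (by decide) (by decide)
    (by decide)
  h2 := half_of (fun _ => card_360 card_A6) zz6 ee6 ze6 (by decide) (by decide) (by decide) card_S6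
    (fun g hg => (conj_a6 g (mem_centralizer_singleton_iff.1 hg)).2) (by decide) (by decide) (by decide) (by decide)
    (by decide)
  ne := by
    intro h
    have h1 : a6 ∈ klein z6 e6 zz6 ee6 ze6 := by
      rw [← h]
      exact Or.inr (Or.inr (Or.inl rfl))
    rw [mem_klein] at h1
    exact absurd h1 (by decide)
  cardS := card_S6
  inv := fun g hg h => inv_6 g (mem_centralizer_singleton_iff.1 hg) h
  cz := rfl

/-- the Sylow 2-subgroup of `A_6` -/
noncomputable def syl6 : Sylow 2 A6 :=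
  have hp2 : Fact (Nat.Prime 2) := ⟨Nat.prime_two⟩
  (IsPGroup.of_card (n := 3) card_S6 : IsPGroup 2 ↥(centralizer ({z6} : Set A6))).toSylow (by
    have h1 := (centralizer ({z6} : Set A6)).card_mul_index
    rw [card_S6, card_A6] at h1
    omega)

theorem exists_cfg {K : Type u} [Group K] [Finite K] (e : K ≃* A6) (S₁ : Sylow 2 K) :
    ∃ (V₁ V₂ : Subgroup K) (z t₁ s₁ t₂ s₂ : K), Cfg (S₁ : Subgroup K) V₁ V₂ z t₁ s₁ t₂ s₂ := by
  have hp2 : Fact (Nat.Prime 2) := ⟨Nat.prime_two⟩
  have c : Cfg ((syl6 : Sylow 2 A6) : Subgroup A6) (klein z6 a6 zz6 aa6 za6) (klein z6 e6 zz6 ee6 ze6) z6 t6 f6 u6 a6 :=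
    cfg_A6
  have c' := c.map e.symm
  -- the image of `syl6` is a Sylow 2-subgroup of `K`
  have hp : IsPGroup 2 ↥(((syl6 : Sylow 2 A6) : Subgroup A6).map e.symm.toMonoidHom) := syl6.isPGroup'.map _
  have hi : ¬ 2 ∣ (((syl6 : Sylow 2 A6) : Subgroup A6).map e.symm.toMonoidHom).index := by
    rw [index_map_of_bijective e.symm.bijective]
    exact syl6.not_dvd_index
  obtain ⟨g, hg⟩ := MulAction.exists_smul_eq K (hp.toSylow hi) S₁
  have hg' : (S₁ : Subgroup K) = (((syl6 : Sylow 2 A6) : Subgroup A6).map e.symm.toMonoidHom).map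
      (MulAut.conj g).toMonoidHom := by
    rw [← hg]
    rfl
  have c'' := c'.map (MulAut.conj g)
  rw [← hg'] at c''
  exact ⟨_, _, _, _, _, _, _, c''⟩

/-- **`A_6` is not `F*(G)`.** -/
theorem no1_alt_six : No1.{u} (fun K _ => Nonempty (K ≃* ↥(alternatingGroup (Fin 6)))) := by
  intro G _ _ S Q M Y x K h he
  obtain ⟨e⟩ := he
  have hp2 : Fact (Nat.Prime 2) := ⟨Nat.prime_two⟩
  have hKn := h.nK
  obtain ⟨V₁, V₂, z, t₁, s₁, t₂, s₂, c⟩ := exists_cfg e
    ((Lib.SylowNormalInf.isPGroup_subgroupOf S K).toSylow (Lib.SylowNormalInf.not_dvd_relIndex S K))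
  exact no1_of_cfg h rfl c

/-- **`A_6` is not a component.** -/
theorem no2_alt_six : No2.{u} (fun K _ => Nonempty (K ≃* ↥(alternatingGroup (Fin 6)))) := by
  intro K _ _ _ S₁ P V h he
  obtain ⟨e⟩ := he
  obtain ⟨V₁, V₂, z, t₁, s₁, t₂, s₂, c⟩ := exists_cfg e S₁
  exact c.no2 h

end Cfsg.Agent.H22.Tall
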