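import Cfsg.Agent.H226.Tall.Gen
import Cfsg.Agent.Lib.SylowNormalInf

/-!
# S2927: simple groups with dihedral Sylow 2-subgroups of order 8 (helper22)

`Cfg S V₁ V₂ z t₁ s₁ t₂ s₂` : `S = C_K(z)` is of order 8, the involutions of `S` are in the four-subgroups `V₁`, `V₂`,
`N_K(V_i) = ⟨S, t_i⟩ ≅ S_4` is maximal in `K`. Examples: `A_6`, `L_3(2)`.
-/

set_option autoImplicit false
set_option linter.unusedSectionVars false

namespace Cfsg.Agent.H22.Tall

open Subgroup Cfsg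

/-- one half of the configuration -/
structure Half {K : Type*} [Group K] (S V : Subgroup K) (z t s : K) : Prop where
  z_ne : z ≠ 1
  zV : z ∈ V
  sq : ∀ v ∈ V, v * v = 1
  card : Nat.card V = 4
  le : V ≤ S
  n : S ≤ normalizer (V : Set K)
  tn : t ∈ normalizer (V : Set K)
  t3 : t * t * t = 1
  tz : t * z ≠ z * t
  sS : s ∈ S
  st : s * t * s⁻¹ = t⁻¹
  max : ∀ H : Subgroup K, S ≤ H → t ∈ H → H = normalizer (V : Set K) ∨ H = ⊤

/-- the configuration -/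
structure Cfg {K : Type*} [Group K] (S V₁ V₂ : Subgroup K) (z t₁ s₁ t₂ s₂ : K) : Prop where
  h1 : Half S V₁ z t₁ s₁
  h2 : Half S V₂ z t₂ s₂
  ne : V₁ ≠ V₂
  cardS : Nat.card S = 8
  inv : ∀ s ∈ S, s * s = 1 → s ∈ V₁ ∨ s ∈ V₂
  cz : centralizer ({z} : Set K) = S

theorem sup_norm {K : Type*} [Group K] {A B : Subgroup K} {g : K} (hA : g ∈ normalizer (A : Set K))
    (hB : g ∈ normalizer (B : Set K)) : g ∈ normalizer ((A ⊔ B : Subgroup K) : Set K) := by
  rw [mem_normalizer_iff_map_conj_eq] at hA hB ⊢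
  rw [Subgroup.map_sup, hA, hB]

namespace Half

variable {K : Type*} [Group K] [Finite K] {S V : Subgroup K} {z t s : K}

theorem comm (h : Half S V z t s) {v w : K} (hv : v ∈ V) (hw : w ∈ V) : v * w = w * v := by
  have h1 := h.sq _ (V.mul_mem hv hw)
  have h2 := h.sq v hv
  have h3 := h.sq w hw
  calc v * w = v * 1 * w := by rw [mul_one]
    _ = v * (v * w * (v * w)) * w := by rw [h1]
    _ = (v * v) * (w * v) * (w * w) := by group
    _ = w * v := by rw [h2, h3]; group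

theorem aV (h : Half S V z t s) : t * z * t⁻¹ ∈ V := (mem_normalizer_iff.1 h.tn z).1 h.zV

theorem bV (h : Half S V z t s) : t⁻¹ * z * t ∈ V := by
  have h1 := inv_mem h.tn
  have h2 := (mem_normalizer_iff.1 h1 z).1 h.zV
  rwa [inv_inv] at h2

theorem a_ne_z (h : Half S V z t s) : t * z * t⁻¹ ≠ z := fun h1 => h.tz (mul_inv_eq_iff_eq_mul.1 h1)

theorem b_ne_z (h : Half S V z t s) : t⁻¹ * z * t ≠ z := fun h1 => h.tz (by
  rw [mul_assoc, inv_mul_eq_iff_eq_mul] at h1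
  exact h1.symm)

theorem tt (h : Half S V z t s) : t * t = t⁻¹ := by
  rw [eq_inv_iff_mul_eq_one]
  exact h.t3

theorem titi (h : Half S V z t s) : t⁻¹ * t⁻¹ = t := by
  rw [← mul_inv_rev, h.tt, inv_inv]

theorem ta (h : Half S V z t s) : t * (t * z * t⁻¹) * t⁻¹ = t⁻¹ * z * t := by
  calc t * (t * z * t⁻¹) * t⁻¹ = (t * t) * z * (t⁻¹ * t⁻¹) := by group
    _ = _ := by rw [h.tt, h.titi]

theorem a_ne_b (h : Half S V z t s) : t * z * t⁻¹ ≠ t⁻¹ * z * t := by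
  intro h1
  rw [← h.ta] at h1
  apply h.tz
  have h2 : t * z * t⁻¹ = z := by
    have h3 : t⁻¹ * (t * z * t⁻¹) * t = t⁻¹ * (t * (t * z * t⁻¹) * t⁻¹) * t := congrArg (fun x => t⁻¹ * x * t) h1
    calc t * z * t⁻¹ = t⁻¹ * (t * (t * z * t⁻¹) * t⁻¹) * t := by group
      _ = t⁻¹ * (t * z * t⁻¹) * t := h3.symm
      _ = z := by group
  exact mul_inv_eq_iff_eq_mul.1 h2

theorem mem_iff (h : Half S V z t s) {v : K} (hv : v ∈ V) : v = 1 ∨ v = z ∨ v = t * z * t⁻¹ ∨ v = t⁻¹ * z * t := by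
  classical
  have h1 : ({1, z, t * z * t⁻¹, t⁻¹ * z * t} : Set K) ⊆ (V : Set K) := by
    rintro x (rfl | rfl | rfl | rfl)
    · exact V.one_mem
    · exact h.zV
    · exact h.aV
    · exact h.bV
  have ha1 : t * z * t⁻¹ ≠ 1 := by
    intro h2
    rw [mul_inv_eq_one] at h2
    exact h.z_ne (mul_eq_left.1 h2)
  have hb1 : t⁻¹ * z * t ≠ 1 := by
    intro h2
    rw [mul_assoc, inv_mul_eq_one] at h2
    exact h.z_ne (mul_eq_right.1 h2.symm)
  have h2 : ({1, z, t * z * t⁻¹, t⁻¹ * z * t} : Set K).ncard = 4 := by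
    rw [Set.ncard_insert_of_notMem, Set.ncard_insert_of_notMem, Set.ncard_pair h.a_ne_b]
    · rintro (h3 | h3)
      · exact h.a_ne_z h3.symm
      · exact h.b_ne_z h3.symm
    · rintro (h3 | h3 | h3)
      · exact h.z_ne h3.symm
      · exact ha1 h3.symm
      · exact hb1 h3.symm
  have h3 : (V : Set K).ncard = 4 := by
    rw [← h.card]
    rfl
  have h4 := Set.eq_of_subset_of_ncard_le h1 (by rw [h2, h3])
  have h5 : v ∈ ({1, z, t * z * t⁻¹, t⁻¹ * z * t} : Set K) := by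
    rw [h4]
    exact hv
  exact h5

/-- the product of the two other involutions is `z` -/
theorem ab (h : Half S V z t s) : (t * z * t⁻¹) * (t⁻¹ * z * t) = z := by
  rcases h.mem_iff (V.mul_mem h.aV h.bV) with h1 | h1 | h1 | h1
  · exfalso
    rw [mul_eq_one_iff_eq_inv] at h1
    have h2 := h.sq _ h.bV
    rw [mul_eq_one_iff_eq_inv] at h2
    rw [← h2] at h1
    exact h.a_ne_b h1
  · exact h1
  · exfalso
    rw [mul_eq_left] at h1
    rw [mul_assoc, inv_mul_eq_one] at h1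
    exact h.z_ne (mul_eq_right.1 h1.symm)
  · exfalso
    rw [mul_eq_right] at h1
    rw [mul_inv_eq_one] at h1
    exact h.z_ne (mul_eq_left.1 h1)

theorem zb (h : Half S V z t s) : z * (t⁻¹ * z * t) = t * z * t⁻¹ := by
  calc z * (t⁻¹ * z * t) = (t * z * t⁻¹) * (t⁻¹ * z * t) * (t⁻¹ * z * t) := by rw [h.ab]
    _ = (t * z * t⁻¹) * ((t⁻¹ * z * t) * (t⁻¹ * z * t)) := by group
    _ = _ := by rw [h.sq _ h.bV, mul_one]

theorem za (h : Half S V z t s) : z * (t * z * t⁻¹) = t⁻¹ * z * t := by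
  calc z * (t * z * t⁻¹) = z * (z * (t⁻¹ * z * t)) := by rw [h.zb]
    _ = (z * z) * (t⁻¹ * z * t) := by group
    _ = _ := by rw [h.sq z h.zV, one_mul]

/-- `s` commutes with `z` -/
theorem sa (h : Half S V z t s) (hz : s * z = z * s) : s * (t * z * t⁻¹) * s⁻¹ = t⁻¹ * z * t := by
  have h1 : s * z * s⁻¹ = z := mul_inv_eq_iff_eq_mul.2 hz
  calc s * (t * z * t⁻¹) * s⁻¹ = (s * t * s⁻¹) * (s * z * s⁻¹) * (s * t * s⁻¹)⁻¹ := by group
    _ = _ := by rw [h.st, h1, inv_inv]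

theorem sb (h : Half S V z t s) (hz : s * z = z * s) : s * (t⁻¹ * z * t) * s⁻¹ = t * z * t⁻¹ := by
  have h1 : s * z * s⁻¹ = z := mul_inv_eq_iff_eq_mul.2 hz
  calc s * (t⁻¹ * z * t) * s⁻¹ = (s * t * s⁻¹)⁻¹ * (s * z * s⁻¹) * (s * t * s⁻¹) := by group
    _ = _ := by rw [h.st, h1, inv_inv]

/-- an `S`-invariant subgroup containing an element `≠ 1, z` of `V` contains `V` -/
theorem le_of_mem (h : Half S V z t s) (hz : s * z = z * s) {R : Subgroup K} (hR : S ≤ normalizer (R : Set K)) {c : K}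
    (hc : c ∈ V) (hcR : c ∈ R) (h1 : c ≠ 1) (hcz : c ≠ z) : V ≤ R := by
  have key : t * z * t⁻¹ ∈ R ∧ t⁻¹ * z * t ∈ R := by
    have hs := mem_normalizer_iff.1 (hR h.sS)
    rcases h.mem_iff hc with h2 | h2 | h2 | h2
    · exact absurd h2 h1
    · exact absurd h2 hcz
    · refine ⟨h2 ▸ hcR, ?_⟩
      rw [← h.sa hz]
      exact (hs _).1 (h2 ▸ hcR)
    · refine ⟨?_, h2 ▸ hcR⟩
      rw [← h.sb hz]
      exact (hs _).1 (h2 ▸ hcR)
  intro v hv
  rcases h.mem_iff hv with h2 | h2 | h2 | h2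
  · rw [h2]; exact R.one_mem
  · rw [h2, ← h.ab]; exact R.mul_mem key.1 key.2
  · rw [h2]; exact key.1
  · rw [h2]; exact key.2

/-- an automorphism which fixes `z` and acts trivially on `N(V) / V` centralises `V` -/
theorem fix (h : Half S V z t s) {α : MulAut K} (hz : α z = z) (ht : t⁻¹ * α t ∈ V) : ∀ v ∈ V, α v = v := by
  have h1 : α t = t * (t⁻¹ * α t) := by group
  set c := t⁻¹ * α t with hc
  have hca : c * z * c⁻¹ = z := by
    rw [h.comm ht h.zV]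
    group
  have ha : α (t * z * t⁻¹) = t * z * t⁻¹ := by
    rw [map_mul, map_mul, map_inv, hz, h1]
    calc t * c * z * (t * c)⁻¹ = t * (c * z * c⁻¹) * t⁻¹ := by group
      _ = _ := by rw [hca]
  have hb : α (t⁻¹ * z * t) = t⁻¹ * z * t := by
    rw [← h.za, map_mul, hz, ha]
  intro v hv
  rcases h.mem_iff hv with h2 | h2 | h2 | h2
  · rw [h2, map_one]
  · rw [h2, hz]
  · rw [h2, ha]
  · rw [h2, hb]

/-- the action of such an automorphism which centralises `S` -/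
theorem act (h : Half S V z t s) (hsz : s * z = z * s) {α : MulAut K} (hs : α s = s)
    (ht : t⁻¹ * α t ∈ V) : α t = t ∨ α t = z * t * z⁻¹ := by
  have h1 : α t = t * (t⁻¹ * α t) := by group
  set c := t⁻¹ * α t with hc
  have hci : c⁻¹ = c := inv_eq_of_mul_eq_one_right (h.sq c ht)
  have h2 : t * c * t⁻¹ = s * c * s⁻¹ := by
    have h3 : α (s * t * s⁻¹) = α t⁻¹ := by rw [h.st]
    rw [map_mul, map_mul, map_inv, hs, map_inv, h1] at h3
    have h4 : s * (t * c) * s⁻¹ = t⁻¹ * (s * c * s⁻¹) := by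
      calc s * (t * c) * s⁻¹ = (s * t * s⁻¹) * (s * c * s⁻¹) := by group
        _ = _ := by rw [h.st]
    rw [h4, mul_inv_rev, hci] at h3
    calc t * c * t⁻¹ = t * (c * t⁻¹) := by group
      _ = t * (t⁻¹ * (s * c * s⁻¹)) := by rw [h3]
      _ = _ := by group
  have hsz' : s * z * s⁻¹ = z := mul_inv_eq_iff_eq_mul.2 hsz
  rcases h.mem_iff ht with h3 | h3 | h3 | h3
  · left
    rw [h1, h3, mul_one]
  · exfalso
    rw [h3, hsz'] at h2
    exact h.a_ne_z h2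
  · right
    have hzi : z⁻¹ = z := inv_eq_of_mul_eq_one_right (h.sq z h.zV)
    rw [h1, h3, ← h.zb, hzi, h.comm h.zV h.bV]
    group
  · exfalso
    rw [h3, h.sb hsz] at h2
    have h4 : t * (t⁻¹ * z * t) * t⁻¹ = z := by group
    rw [h4] at h2
    exact h.a_ne_z h2.symm

end Half

namespace Cfg

variable {K : Type*} [Group K] [Finite K] {S V₁ V₂ : Subgroup K} {z t₁ s₁ t₂ s₂ : K}

theorem symm (c : Cfg S V₁ V₂ z t₁ s₁ t₂ s₂) : Cfg S V₂ V₁ z t₂ s₂ t₁ s₁ where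
  h1 := c.h2
  h2 := c.h1
  ne := c.ne.symm
  cardS := c.cardS
  inv := fun s hs h => (c.inv s hs h).symm
  cz := c.cz

theorem sz (c : Cfg S V₁ V₂ z t₁ s₁ t₂ s₂) {x : K} (hx : x ∈ S) : x * z = z * x := by
  rw [← c.cz] at hx
  exact mem_centralizer_singleton_iff.1 hx

theorem sup_eq (c : Cfg S V₁ V₂ z t₁ s₁ t₂ s₂) : V₁ ⊔ V₂ = S := by
  have h1 : V₁ ⊔ V₂ ≤ S := sup_le c.h1.le c.h2.le
  refine eq_of_le_of_card_ge h1 ?_
  rw [c.cardS]
  have h2 : 4 ∣ Nat.card ↥(V₁ ⊔ V₂) := by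
    rw [← c.h1.card]
    exact card_dvd_of_le le_sup_left
  have h3 : Nat.card ↥(V₁ ⊔ V₂) ≠ 4 := by
    intro h4
    have h5 : V₁ = V₁ ⊔ V₂ := eq_of_le_of_card_ge le_sup_left (by rw [h4, c.h1.card])
    have h6 : V₂ = V₁ ⊔ V₂ := eq_of_le_of_card_ge le_sup_right (by rw [h4, c.h2.card])
    exact c.ne (h5.trans h6.symm)
  have h4 : 0 < Nat.card ↥(V₁ ⊔ V₂) := Nat.card_pos
  obtain ⟨k, hk⟩ := h2
  rcases k with _ | _ | k <;> omega

/-- a subgroup of `S` of exponent 2 is in `V₁` or in `V₂` -/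
theorem le_or (c : Cfg S V₁ V₂ z t₁ s₁ t₂ s₂) {W : Subgroup K} (hW : W ≤ S) (h2 : ∀ w ∈ W, w * w = 1) :
    W ≤ V₁ ∨ W ≤ V₂ := by
  by_contra h
  rw [not_or] at h
  obtain ⟨h3, h4⟩ := h
  obtain ⟨w, hw, hw1⟩ := SetLike.not_le_iff_exists.1 h3
  obtain ⟨w', hw', hw2⟩ := SetLike.not_le_iff_exists.1 h4
  have h5 := (c.inv w (hW hw) (h2 w hw)).resolve_left hw1
  have h6 := (c.inv w' (hW hw') (h2 w' hw')).resolve_right hw2
  rcases c.inv (w * w') (hW (W.mul_mem hw hw')) (h2 _ (W.mul_mem hw hw')) with h7 | h7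
  · exact hw1 ((mul_mem_cancel_right h6).1 h7)
  · exact hw2 ((mul_mem_cancel_left h5).1 h7)

/-- `z` is the only central involution of `S` -/
theorem central (c : Cfg S V₁ V₂ z t₁ s₁ t₂ s₂) {x : K} (hx : x ∈ S) (h2 : x * x = 1)
    (hc : ∀ s ∈ S, s * x = x * s) : x = 1 ∨ x = z := by
  have key : ∀ {V : Subgroup K} {t s : K}, Half S V z t s → x ∈ V → x = 1 ∨ x = z := by
    intro V t s h hxV
    have hs := hc s h.sS
    rw [← mul_inv_eq_iff_eq_mul] at hs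
    rcases h.mem_iff hxV with h3 | h3 | h3 | h3
    · exact Or.inl h3
    · exact Or.inr h3
    · exfalso
      rw [h3, h.sa (c.sz h.sS)] at hs
      exact h.a_ne_b hs.symm
    · exfalso
      rw [h3, h.sb (c.sz h.sS)] at hs
      exact h.a_ne_b hs
  rcases c.inv x hx h2 with h3 | h3
  · exact key c.h1 h3
  · exact key c.h2 h3

/-- automorphisms which normalise `S` -/
theorem aut_z (c : Cfg S V₁ V₂ z t₁ s₁ t₂ s₂) {α : MulAut K} (hα : ∀ s ∈ S, α s ∈ S) : α z = z := by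
  have hS : S.map α.toMonoidHom = S := by
    refine eq_of_le_of_card_ge ?_ ?_
    · rintro y ⟨w, hw, rfl⟩
      exact hα w hw
    · rw [Nat.card_congr (S.equivMapOfInjective α.toMonoidHom α.injective).toEquiv]
  have hzS : z ∈ S := c.h1.le c.h1.zV
  have h1 : α z * α z = 1 := by rw [← map_mul, c.h1.sq z c.h1.zV, map_one]
  rcases c.central (hα z hzS) h1 (by
    intro s hs
    rw [← hS] at hs
    obtain ⟨w, hw, rfl⟩ := hs
    show α w * α z = α z * α w
    rw [← map_mul, c.sz hw, map_mul]) with h2 | h2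
  · exfalso
    exact c.h1.z_ne (α.injective (h2.trans (map_one α).symm))
  · exact h2

theorem aut_V (c : Cfg S V₁ V₂ z t₁ s₁ t₂ s₂) {α : MulAut K} (hα : ∀ s ∈ S, α s ∈ S) :
    (V₁.map α.toMonoidHom = V₁ ∧ V₂.map α.toMonoidHom = V₂) ∨
      (V₁.map α.toMonoidHom = V₂ ∧ V₂.map α.toMonoidHom = V₁) := by
  have key : ∀ {V : Subgroup K}, V ≤ S → (∀ v ∈ V, v * v = 1) → Nat.card V = 4 →
      V.map α.toMonoidHom = V₁ ∨ V.map α.toMonoidHom = V₂ := by
    intro V hVS hV2 hV4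
    have h4 : Nat.card ↥(V.map α.toMonoidHom) = 4 := by
      rw [← hV4]
      exact (Nat.card_congr (V.equivMapOfInjective α.toMonoidHom α.injective).toEquiv).symm
    rcases c.le_or (W := V.map α.toMonoidHom) (by
      rintro y ⟨w, hw, rfl⟩
      exact hα w (hVS hw)) (by
      rintro y ⟨w, hw, rfl⟩
      show α w * α w = 1
      rw [← map_mul, hV2 w hw, map_one]) with h5 | h5
    · exact Or.inl (eq_of_le_of_card_ge h5 (by rw [h4, c.h1.card]))
    · exact Or.inr (eq_of_le_of_card_ge h5 (by rw [h4, c.h2.card]))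
  have hinj : V₁.map α.toMonoidHom ≠ V₂.map α.toMonoidHom := fun h =>
    c.ne (map_injective α.injective h)
  rcases key c.h1.le c.h1.sq c.h1.card with h1 | h1 <;> rcases key c.h2.le c.h2.sq c.h2.card with h2 | h2
  · exact absurd (h1.trans h2.symm) hinj
  · exact Or.inl ⟨h1, h2⟩
  · exact Or.inr ⟨h1, h2⟩
  · exact absurd (h1.trans h2.symm) hinj

/-- **invariant subgroups of `S`** -/
theorem dichotomy (c : Cfg S V₁ V₂ z t₁ s₁ t₂ s₂) {R : Subgroup K} (hR : R ≤ S) (hn : S ≤ normalizer (R : Set K))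
    (hne : R ≠ ⊥) : V₁ ≤ R ∨ V₂ ≤ R ∨ (z ∈ R ∧ ∀ r ∈ R, r * r = 1 → r = 1 ∨ r = z) := by
  by_cases h : ∃ r ∈ R, r * r = 1 ∧ r ≠ 1 ∧ r ≠ z
  · obtain ⟨r, h1, h2, h3, h4⟩ := h
    rcases c.inv r (hR h1) h2 with h5 | h5
    · exact Or.inl (c.h1.le_of_mem (c.sz c.h1.sS) hn h5 h1 h3 h4)
    · exact Or.inr (Or.inl (c.h2.le_of_mem (c.sz c.h2.sS) hn h5 h1 h3 h4))
  · right; right
    have h1 : ∀ r ∈ R, r * r = 1 → r = 1 ∨ r = z := by
      intro r hr h2
      by_contra h3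
      rw [not_or] at h3
      exact h ⟨r, hr, h2, h3.1, h3.2⟩
    refine ⟨?_, h1⟩
    -- an involution in `R`
    have hp2 : Fact (Nat.Prime 2) := ⟨Nat.prime_two⟩
    have h8 : Nat.card R ∣ 8 := by
      rw [← c.cardS]
      exact card_dvd_of_le hR
    have h2 : 2 ∣ Nat.card R := by
      have h3 : Nat.card R ∣ 2 ^ 3 := h8
      obtain ⟨k, hk, hk2⟩ := (Nat.dvd_prime_pow Nat.prime_two).1 h3
      rcases k with _ | k
      · exfalso
        rw [pow_zero] at hk2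
        exact hne (card_eq_one.1 hk2)
      · rw [hk2]
        exact dvd_pow_self 2 (Nat.succ_ne_zero k)
    obtain ⟨r, hr⟩ := exists_prime_orderOf_dvd_card' 2 h2
    have hr2 : (r : K) * r = 1 := by
      have h3 : r ^ 2 = 1 := orderOf_dvd_iff_pow_eq_one.1 (by rw [hr])
      have h4 := congrArg Subtype.val h3
      rw [← pow_two]
      exact h4
    rcases h1 r r.2 hr2 with h3 | h3
    · exfalso
      have h4 : r = 1 := Subtype.ext h3
      rw [h4, orderOf_one] at hr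
      exact absurd hr (by norm_num)
    · rw [← h3]
      exact r.2

theorem not_norm (c : Cfg S V₁ V₂ z t₁ s₁ t₂ s₂) (h : t₁ ∈ normalizer (S : Set K)) : False := by
  have h1 : MulAut.conj t₁ z = z := c.aut_z (α := MulAut.conj t₁) (fun s hs => (mem_normalizer_iff.1 h s).1 hs)
  rw [MulAut.conj_apply] at h1
  exact c.h1.a_ne_z h1

/-- a normal 2-subgroup of `N(V₁)` is in `V₁` -/
theorem le_V (c : Cfg S V₁ V₂ z t₁ s₁ t₂ s₂) {W : Subgroup K} (hW : W ≤ S)
    (hn : normalizer (V₁ : Set K) ≤ normalizer (W : Set K)) : W ≤ V₁ := by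
  have h1 : W ⊔ V₁ ≤ S := sup_le hW c.h1.le
  have h2 : Nat.card ↥(W ⊔ V₁) ∣ 8 := by
    rw [← c.cardS]
    exact card_dvd_of_le h1
  have h3 : 4 ∣ Nat.card ↥(W ⊔ V₁) := by
    rw [← c.h1.card]
    exact card_dvd_of_le le_sup_right
  by_cases h4 : Nat.card ↥(W ⊔ V₁) = 4
  · have h5 : V₁ = W ⊔ V₁ := eq_of_le_of_card_ge le_sup_right (by rw [h4, c.h1.card])
    rw [h5]
    exact le_sup_left
  · exfalso
    have h5 : Nat.card ↥(W ⊔ V₁) = 8 := by
      obtain ⟨k, hk⟩ := h3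
      have h6 := Nat.le_of_dvd (by norm_num) h2
      have h7 : 0 < Nat.card ↥(W ⊔ V₁) := Nat.card_pos
      rcases k with _ | _ | _ | k
      · omega
      · omega
      · omega
      · omega
    have h6 : W ⊔ V₁ = S := eq_of_le_of_card_ge h1 (by rw [h5, c.cardS])
    apply c.not_norm
    rw [← h6]
    exact sup_norm (hn c.h1.tn) c.h1.tn

/-- `⟨S, t₁, t₂⟩ = K` -/
theorem top (c : Cfg S V₁ V₂ z t₁ s₁ t₂ s₂) {H : Subgroup K} (h : S ≤ H) (h1 : t₁ ∈ H) (h2 : t₂ ∈ H) : H = ⊤ := by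
  rcases c.h1.max H h h1 with h3 | h3
  · rcases c.h2.max H h h2 with h4 | h4
    · exfalso
      apply c.not_norm
      rw [← c.sup_eq]
      refine sup_norm c.h1.tn ?_
      rw [← h4, h3]
      exact c.h1.tn
    · exact h4
  · exact h3

/-- `Loc`: no element of `P` swaps `V₁` and `V₂` -/
theorem no_swap (c : Cfg S V₁ V₂ z t₁ s₁ t₂ s₂) {R : Subgroup K} (hne : R ≠ ⊥) (hR : R ≤ S)
    (hn : S ≤ normalizer (R : Set K)) {α : MulAut K} (hα : ∀ r ∈ R, α r ∈ R) (hV : V₁.map α.toMonoidHom = V₂)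
    (hV' : V₂.map α.toMonoidHom = V₁) : R = S ∨ (z ∈ R ∧ ∀ r ∈ R, r * r = 1 → r = 1 ∨ r = z) := by
  rcases c.dichotomy hR hn hne with h | h | h
  · left
    apply le_antisymm hR
    rw [← c.sup_eq]
    refine sup_le h ?_
    rw [← hV]
    rintro y ⟨w, hw, rfl⟩
    exact hα w (h hw)
  · left
    apply le_antisymm hR
    rw [← c.sup_eq]
    refine sup_le ?_ h
    rw [← hV']
    rintro y ⟨w, hw, rfl⟩
    exact hα w (h hw)
  · exact Or.inr h

end Cfg

end Cfsg.Agent.H22.Tall
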