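import Cfsg.Agent.H22.Tall.CfgNo2

/-!
# S2927: the configuration does not occur as `F*(G)` (helper22)
-/

set_option autoImplicit false
set_option linter.unusedSectionVars false

namespace Cfsg.Agent.H22.Tall

open Subgroup Cfsg
open Cfsg.Agent.H239.CharPLocal (CP)
open Cfsg.Agent.H226.Tall
open Cfsg.Agent.Lib.Cores

universe u

section

variable {K : Type u} [Group K] [Finite K] {S₁ : Sylow 2 K} {V₁ V₂ : Subgroup K} {z t₁ s₁ t₂ s₂ : K}

/-- **The automorphisms** which centralise `S` and act trivially on `N(V_i) / V_i`. -/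
theorem Cfg.fix_cases (c : Cfg (S₁ : Subgroup K) V₁ V₂ z t₁ s₁ t₂ s₂) {α : MulAut K} (h1 : t₁⁻¹ * α t₁ ∈ V₁)
    (h2 : t₂⁻¹ * α t₂ ∈ V₂) (hS : ∀ s ∈ (S₁ : Subgroup K), α s ∈ (S₁ : Subgroup K)) (hne : α ≠ 1) :
    (∀ k, α k = z * k * z⁻¹) ∨ (∀ k, α k = k ↔ k ∈ normalizer (V₁ : Set K)) ∨
      (∀ k, α k = k ↔ k ∈ normalizer (V₂ : Set K)) := by
  have hz := c.aut_z hS
  have hf1 := c.h1.fix hz h1
  have hf2 := c.h2.fix hz h2
  have hfS : (S₁ : Subgroup K) ≤ (α.toMonoidHom).eqLocus (MonoidHom.id K) := by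
    rw [← c.sup_eq]
    exact sup_le hf1 hf2
  have hnt : (α.toMonoidHom).eqLocus (MonoidHom.id K) ≠ ⊤ := by
    intro h
    apply hne
    ext k
    have : k ∈ (α.toMonoidHom).eqLocus (MonoidHom.id K) := by rw [h]; exact mem_top k
    exact this
  rcases c.h1.act (c.sz c.h1.sS) (hfS c.h1.sS) h1 with h3 | h3
  · right; left
    have h4 := (c.h1.max _ hfS h3).resolve_right hnt
    intro k
    rw [← h4]
    rfl
  · rcases c.h2.act (c.sz c.h2.sS) (hfS c.h2.sS) h2 with h5 | h5
    · right; right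
      have h4 := (c.h2.max _ hfS h5).resolve_right hnt
      intro k
      rw [← h4]
      rfl
    · left
      have h6 : (α.toMonoidHom).eqLocus (MulAut.conj z).toMonoidHom = ⊤ := by
        refine c.top (fun s hs => ?_) h3 h5
        show α s = z * s * z⁻¹
        rw [show α s = s from hfS hs, ← c.sz hs]
        group
      intro k
      have : k ∈ (α.toMonoidHom).eqLocus (MulAut.conj z).toMonoidHom := by rw [h6]; exact mem_top k
      exact this

end

section

variable {G : Type u} [Group G] [Finite G]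

/-- a criterion for characteristic 2 -/
theorem cp_of {C W : Subgroup G} (hWC : W ≤ C) (hn : C ≤ normalizer (W : Set G)) (hW : IsPGroup 2 W)
    (hc : IsPGroup 2 ↥(centralizer (W : Set G))) : CP 2 ↥C := by
  have h1 : (W.subgroupOf C).Normal := (normal_subgroupOf_iff_le_normalizer hWC).2 hn
  have h2 : IsPGroup 2 ↥(W.subgroupOf C) := hW.comap_of_injective C.subtype C.subtype_injective
  have h3 : W.subgroupOf C ≤ pCore 2 ↥C := le_pCore h1 h2
  have h4 : IsPGroup 2 ↥(centralizer (pCore 2 ↥C : Set ↥C)) := by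
    rintro ⟨⟨g, hg⟩, hgc⟩
    have h5 : g ∈ centralizer (W : Set G) := by
      rw [mem_centralizer_iff]
      intro w hw
      have h6 := mem_centralizer_iff.1 hgc ⟨w, hWC hw⟩ (h3 hw)
      exact congrArg Subtype.val h6
    obtain ⟨k, hk⟩ := hc ⟨g, h5⟩
    refine ⟨k, ?_⟩
    apply Subtype.ext
    apply Subtype.ext
    have h7 : g ^ 2 ^ k = 1 := congrArg Subtype.val hk
    exact h7
  have h5 : (centralizer (pCore 2 ↥C : Set ↥C)).Normal := inferInstance
  exact le_pCore h5 h4

theorem cp_of_O2 {L : Subgroup G} (h : centralizer (O2 L : Set G) ≤ O2 L) : CP 2 ↥L := by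
  intro g hg
  have h1 : (g : G) ∈ centralizer (O2 L : Set G) := by
    rw [mem_centralizer_iff]
    rintro w ⟨w, hw, rfl⟩
    exact congrArg Subtype.val (mem_centralizer_iff.1 hg w hw)
  obtain ⟨g', hg', h2⟩ := h h1
  rwa [← Subtype.ext h2]

variable {S : Sylow 2 G} {Q M Y : Subgroup G} {x : G} {K : Subgroup G}

/-- **The configuration is not `F*(G)`.** -/
theorem no1_of_cfg (h : One S Q M Y x K) {S₁ : Sylow 2 ↥K} (hS₁ : (S₁ : Subgroup ↥K) = (S : Subgroup G).subgroupOf K)
    {V₁ V₂ : Subgroup ↥K} {z t₁ s₁ t₂ s₂ : ↥K} (c : Cfg (S₁ : Subgroup ↥K) V₁ V₂ z t₁ s₁ t₂ s₂) : False := by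
  have hKn := h.nK
  set φ : G →* MulAut ↥K := MulAut.conjNormal with hφ
  have φv : ∀ (g : G) (k : ↥K), ((φ g k : ↥K) : G) = g * k * g⁻¹ := fun g k => by
    rw [hφ]; exact MulAut.conjNormal_apply g k
  have memS₁ : ∀ k : ↥K, k ∈ (S₁ : Subgroup ↥K) ↔ (k : G) ∈ (S : Subgroup G) := by
    intro k
    rw [hS₁]
    exact mem_subgroupOf
  have hφS : ∀ g ∈ (S : Subgroup G), ∀ s ∈ (S₁ : Subgroup ↥K), φ g s ∈ (S₁ : Subgroup ↥K) := by
    intro g hg s hs
    rw [memS₁, φv]
    exact mul_mem (mul_mem hg ((memS₁ s).1 hs)) (inv_mem hg)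
  -- the normalizer of `S₁`
  set N : Subgroup G := normalizer (((S₁ : Subgroup ↥K).map K.subtype : Subgroup G) : Set G) with hN
  have φN : ∀ g : G, (∀ s ∈ (S₁ : Subgroup ↥K), φ g s ∈ (S₁ : Subgroup ↥K)) → g ∈ N := by
    intro g hg
    rw [hN, mem_normalizer_iff_map_conj_eq]
    refine eq_of_le_of_card_ge ?_ ?_
    · rintro y ⟨_, ⟨s, hs, rfl⟩, rfl⟩
      exact ⟨φ g s, hg s hs, φv g s⟩
    · rw [Nat.card_congr ((((S₁ : Subgroup ↥K).map K.subtype).equivMapOfInjective (MulAut.conj g).toMonoidHom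
        (MulAut.conj g).injective).toEquiv)]
      rfl
  have hSN : (S : Subgroup G) ≤ N := fun s hs => φN s (hφS s hs)
  -- centralizing `z`
  have czS : ∀ g : G, φ g z = z → ∀ s ∈ (S₁ : Subgroup ↥K), φ g s ∈ (S₁ : Subgroup ↥K) := by
    intro g hg s hs
    rw [← c.cz] at hs ⊢
    rw [mem_centralizer_singleton_iff] at hs ⊢
    have := congrArg (φ g) hs
    rwa [map_mul, map_mul, hg] at this
  have czN : ∀ g : G, φ g z = z → g ∈ N := fun g hg => φN g (czS g hg)
  have mapeq : ∀ {W : Subgroup ↥K} (g : G), (∀ w ∈ W, φ g w ∈ W) → W.map (φ g).toMonoidHom = W := by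
    intro W g hg
    refine eq_of_le_of_card_ge ?_ ?_
    · rintro y ⟨w, hw, rfl⟩
      exact hg w hw
    · rw [Nat.card_congr (W.equivMapOfInjective (φ g).toMonoidHom (φ g).injective).toEquiv]
  have hSK : ∀ L : Subgroup G, (S : Subgroup G) ≤ L → O2 L ≤ S := fun L hL => le_syl hL (O2_p L) (norm_O2 L)
  -- no element of `S` swaps `V₁` and `V₂`
  have hns : ∀ s ∈ (S : Subgroup G), V₁.map (φ s).toMonoidHom = V₁ ∧ V₂.map (φ s).toMonoidHom = V₂ := by
    intro s hs
    refine (c.aut_V (hφS s hs)).resolve_right ?_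
    rintro ⟨hV1, hV2⟩
    have key : ∀ L : Subgroup G, IsMaximalTwoLocal L → (S : Subgroup G) ≤ L → L = N := by
      intro L hL hSL
      obtain ⟨⟨T, hT, hT1, hLT⟩, hmax⟩ := hL
      have hTL : T ≤ O2 L := by
        rw [hLT]
        exact le_O2 le_normalizer le_rfl hT
      have hO : O2 L ≠ ⊥ := fun h1 => hT1 (le_bot_iff.1 (h1 ▸ hTL))
      have hpar := h.par L hSL hO
      have hOS := hSK L hSL
      have hLO := norm_O2 L
      set R : Subgroup ↥K := (O2 L).subgroupOf K with hR
      have hRS : R ≤ S₁ := fun r hr => (memS₁ r).2 (hOS hr)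
      have hRL : ∀ g ∈ L, ∀ r ∈ R, φ g r ∈ R := by
        intro g hg r hr
        rw [hR, mem_subgroupOf, φv]
        exact (mem_normalizer_iff.1 (hLO hg) _).1 hr
      have hRne : R ≠ ⊥ := by
        intro hR0
        have h1 : ∀ k : ↥K, k ∈ (S₁ : Subgroup ↥K) → (k : G) ∈ O2 L := by
          intro k hk
          apply hpar
          rw [mem_centralizer_iff]
          intro w hw
          have hkS := (memS₁ k).1 hk
          have h2 : (w * k * w⁻¹ * (k : G)⁻¹) ∈ K := mul_mem (hKn.conj_mem _ k.2 w) (inv_mem k.2)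
          have h3 : (w * k * w⁻¹ * (k : G)⁻¹) ∈ O2 L := by
            have h4 := (mem_normalizer_iff.1 (hLO (hSL hkS)) w⁻¹).1 (inv_mem hw)
            have h5 : w * k * w⁻¹ * (k : G)⁻¹ = w * (k * w⁻¹ * (k : G)⁻¹) := by group
            rw [h5]
            exact mul_mem hw h4
          have h4 : (⟨_, h2⟩ : ↥K) ∈ R := h3
          rw [hR0, mem_bot] at h4
          have h5 : w * k * w⁻¹ * (k : G)⁻¹ = 1 := congrArg Subtype.val h4
          rw [mul_inv_eq_one, mul_inv_eq_iff_eq_mul] at h5
          exact h5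
        have h2 : z ∈ R := h1 z (c.h1.le c.h1.zV)
        rw [hR0, mem_bot] at h2
        exact c.h1.z_ne h2
      have hRn : (S₁ : Subgroup ↥K) ≤ normalizer (R : Set ↥K) := by
        intro k hk
        have hkL := hSL ((memS₁ k).1 hk)
        have hc : ∀ (k r : ↥K), φ (k : G) r = k * r * k⁻¹ := fun k r => Subtype.ext (φv _ _)
        rw [mem_normalizer_iff]
        intro r
        constructor
        · intro hr
          rw [← hc]
          exact hRL _ hkL r hr
        · intro hr
          have h3 := hRL _ (inv_mem hkL) _ hr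
          have h4 : φ ((k : G)⁻¹) (k * r * k⁻¹) = r := by
            apply Subtype.ext
            rw [φv]
            push_cast
            group
          rwa [h4] at h3
      have hLN : L ≤ N := by
        rcases c.no_swap hRne hRS hRn (α := φ s) (hRL s (hSL hs)) hV1 hV2 with h3 | ⟨h3, h4⟩
        · intro g hg
          apply φN
          rw [← h3]
          exact hRL g hg
        · intro g hg
          apply czN
          rcases h4 _ (hRL g hg z h3) (by rw [← map_mul, c.h1.sq z c.h1.zV, map_one]) with h5 | h5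
          · exfalso
            exact c.h1.z_ne ((φ g).injective (h5.trans (map_one _).symm))
          · exact h5
      refine (hmax N ⟨(S₁ : Subgroup ↥K).map K.subtype, S₁.isPGroup'.map _, ?_, rfl⟩ hLN).symm
      intro h1
      have h2 : (z : G) ∈ (S₁ : Subgroup ↥K).map K.subtype := ⟨z, c.h1.le c.h1.zV, rfl⟩
      rw [h1, mem_bot] at h2
      exact c.h1.z_ne (Subtype.ext h2)
    obtain ⟨M₁, M₂, hne, hm1, hm2, hs1, hs2⟩ := h.two
    exact hne ((key M₁ hm1 hs1).trans (key M₂ hm2 hs2).symm)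
  -- normalizers of the `V_i`
  have φnorm : ∀ {V : Subgroup ↥K} (g : G), g ∈ normalizer ((V.map K.subtype : Subgroup G) : Set G) ↔
      V.map (φ g).toMonoidHom = V := by
    intro V g
    rw [mem_normalizer_iff_map_conj_eq]
    have h1 : (V.map K.subtype).map ((MulAut.conj g : G ≃* G) : G →* G) = (V.map (φ g).toMonoidHom).map K.subtype := by
      rw [Subgroup.map_map, Subgroup.map_map]
      congr 1
    rw [h1]
    exact (map_injective K.subtype_injective).eq_iff
  have φnormK : ∀ {V : Subgroup ↥K} (k : ↥K), (k : G) ∈ normalizer ((V.map K.subtype : Subgroup G) : Set G) ↔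
      k ∈ normalizer (V : Set ↥K) := by
    intro V k
    rw [φnorm, mem_normalizer_iff_map_conj_eq]
    have h1 : φ (k : G) = MulAut.conj k := by
      ext r
      rw [φv]
      rfl
    rw [h1]
    rfl
  have main : ∀ {V : Subgroup ↥K} {t : ↥K}, V ≠ ⊥ → V ≤ S₁ → t ∈ normalizer (V : Set ↥K) →
      (∀ s ∈ (S : Subgroup G), V.map (φ s).toMonoidHom = V) → (O2 (normalizer (V : Set ↥K)) = V) →
      ∀ y ∈ Y, t⁻¹ * φ y t ∈ V := by
    intro V t hV0 hVS ht hVn hO y hy
    set L : Subgroup G := normalizer ((V.map K.subtype : Subgroup G) : Set G) with hL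
    have hSL : (S : Subgroup G) ≤ L := fun s hs => (φnorm s).2 (hVn s hs)
    have hVp : IsPGroup 2 ↥(V.map K.subtype) := (S₁.isPGroup'.to_le hVS).map _
    have hVO : V.map K.subtype ≤ O2 L := le_O2 le_normalizer le_rfl hVp
    have hO2 : O2 L ≠ ⊥ := by
      intro h1
      rw [h1, le_bot_iff, Subgroup.map_eq_bot_iff_of_injective _ K.subtype_injective] at hVO
      exact hV0 hVO
    have hcp : CP 2 ↥L := cp_of_O2 (h.par L hSL hO2)
    have hYL : Y ≤ O2 L := by
      refine h.nct L ?_ hcp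
      rw [h.T_eq]
      exact inf_le_left.trans hSL
    have htL : (t : G) ∈ L := (φnormK t).2 ht
    -- the commutator
    have h1 : ((t : G)⁻¹ * (y * t * y⁻¹)) ∈ O2 L := by
      have h2 := (mem_normalizer_iff.1 (norm_O2 L (inv_mem htL)) y).1 (hYL hy)
      rw [inv_inv] at h2
      have h3 : (t : G)⁻¹ * (y * t * y⁻¹) = ((t : G)⁻¹ * y * t) * y⁻¹ := by group
      rw [h3]
      exact mul_mem h2 (inv_mem (hYL hy))
    have h4 : (O2 L).subgroupOf K ≤ O2 (normalizer (V : Set ↥K)) := by
      refine le_O2 ?_ ?_ ?_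
      · intro k hk
        exact (φnormK k).1 (O2_le L hk)
      · intro k hk
        have hkL : (k : G) ∈ L := (φnormK k).2 hk
        have h5 := mem_normalizer_iff.1 (norm_O2 L hkL)
        rw [mem_normalizer_iff]
        intro r
        exact h5 r
      · exact (O2_p L).comap_of_injective K.subtype K.subtype_injective
    rw [← hO]
    apply h4
    rw [mem_subgroupOf]
    push_cast
    rw [φv]
    exact h1
  have hxY := h.x_mem
  have hYS : Y ≤ S := by
    intro y hy
    have h1 := ((h.Y_iff y).1 hy).1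
    rw [h.T_eq] at h1
    exact h1.1
  have m1 := main c.V_ne c.h1.le c.h1.tn (fun s hs => (hns s hs).1) c.O2_eq x hxY
  have m2 := main c.symm.V_ne c.h2.le c.h2.tn (fun s hs => (hns s hs).2) c.symm.O2_eq x hxY
  -- `C_G(K) = 1`
  have hK1 : ∀ g : G, (∀ k : ↥K, φ g k = k) → g = 1 := by
    intro g hg
    have h1 : g ∈ centralizer (K : Set G) := by
      rw [mem_centralizer_iff]
      intro k hk
      have h2 := congrArg Subtype.val (hg ⟨k, hk⟩)
      rw [φv] at h2
      exact (mul_inv_eq_iff_eq_mul.1 h2).symm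
    rw [h.cent] at h1
    exact mem_bot.1 h1
  have hx1 : φ x ≠ 1 := by
    intro h1
    have h2 := hK1 x (fun k => by rw [h1]; rfl)
    have h3 := h.x_ord
    rw [h2, orderOf_one] at h3
    exact absurd h3 (by norm_num)
  -- the centralizer of `V_i` is a 2-group
  have sqc : ∀ {A B : Subgroup ↥K} {t s t' s' : ↥K}, Cfg (S₁ : Subgroup ↥K) A B z t s t' s' → ∀ g : G,
      (∀ v ∈ A, φ g v = v) → ∀ k ∈ normalizer (A : Set ↥K), φ (g * g) k = k := by
    intro A B t s t' s' d g hg k hk
    have hCA : centralizer (A : Set ↥K) ≤ A := by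
      refine d.le_V ?_ ?_
      · rw [← d.cz]
        exact centralizer_le (Set.singleton_subset_iff.2 d.h1.zV)
      · intro n hn
        have hn' := mem_normalizer_iff.1 hn
        have hn'' := mem_normalizer_iff.1 (inv_mem hn)
        have half : ∀ m ∈ normalizer (A : Set ↥K), ∀ r ∈ centralizer (A : Set ↥K), m * r * m⁻¹ ∈ centralizer (A : Set ↥K) := by
          intro m hm r hr
          rw [mem_centralizer_iff] at hr ⊢
          intro a ha
          have h3 := hr _ ((mem_normalizer_iff.1 (inv_mem hm) a).1 ha)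
          rw [inv_inv] at h3
          calc a * (m * r * m⁻¹) = m * ((m⁻¹ * a * m) * r) * m⁻¹ := by group
            _ = m * (r * (m⁻¹ * a * m)) * m⁻¹ := by rw [h3]
            _ = _ := by group
        rw [mem_normalizer_iff]
        intro r
        refine ⟨half n hn r, fun hr => ?_⟩
        have h3 := half n⁻¹ (inv_mem hn) _ hr
        have h4 : n⁻¹ * (n * r * n⁻¹) * n⁻¹⁻¹ = r := by group
        rwa [h4] at h3
    have h1 : k⁻¹ * φ g k ∈ A := by
      apply hCA
      rw [mem_centralizer_iff]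
      intro v hv
      have h2 : φ g (k * v * k⁻¹) = k * v * k⁻¹ := hg _ ((mem_normalizer_iff.1 hk v).1 hv)
      rw [map_mul, map_mul, map_inv, hg v hv] at h2
      calc v * (k⁻¹ * φ g k) = k⁻¹ * (k * v * k⁻¹) * φ g k := by group
        _ = k⁻¹ * (φ g k * v * (φ g k)⁻¹) * φ g k := by rw [h2]
        _ = _ := by group
    have h2 : φ g k = k * (k⁻¹ * φ g k) := by group
    have h3 : φ (g * g) k = φ g (φ g k) := by rw [map_mul]; rfl
    rw [h3]
    calc φ g (φ g k) = φ g (k * (k⁻¹ * φ g k)) := by rw [← h2]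
      _ = φ g k * φ g (k⁻¹ * φ g k) := map_mul _ _ _
      _ = φ g k * (k⁻¹ * φ g k) := by rw [hg _ h1]
      _ = k * ((k⁻¹ * φ g k) * (k⁻¹ * φ g k)) := by group
      _ = k := by rw [d.h1.sq _ h1, mul_one]
  have four : ∀ {A B : Subgroup ↥K} {t s t' s' : ↥K}, Cfg (S₁ : Subgroup ↥K) A B z t s t' s' → ∀ g : G,
      (∀ v ∈ A, φ g v = v) → (g * g) * (g * g) = 1 := by
    intro A B t s t' s' d g hg
    apply hK1
    have h1 := sqc d g hg
    have h2 := sqc d.symm (g * g) (fun v hv => h1 v (d.h1.n (d.h2.le hv)))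
    have h3 : (φ (g * g * (g * g))).toMonoidHom.eqLocus (MonoidHom.id ↥K) = ⊤ := by
      refine d.top (fun s hs => h2 s (d.h2.n hs)) ?_ (h2 _ d.h2.tn)
      show φ (g * g * (g * g)) t = t
      rw [map_mul]
      show φ (g * g) (φ (g * g) t) = t
      rw [h1 t d.h1.tn, h1 t d.h1.tn]
    intro k
    have h4 : k ∈ (φ (g * g * (g * g))).toMonoidHom.eqLocus (MonoidHom.id ↥K) := by rw [h3]; exact mem_top k
    exact h4
  have cent2 : ∀ {W : Subgroup ↥K}, (V₁ ≤ W ∨ V₂ ≤ W) → IsPGroup 2 ↥(centralizer ((W.map K.subtype : Subgroup G) : Set G)) := by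
    rintro W hW ⟨g, hg⟩
    have h1 : ∀ w ∈ W, φ g w = w := by
      intro w hw
      apply Subtype.ext
      rw [φv, mul_inv_eq_iff_eq_mul]
      exact (mem_centralizer_iff.1 hg w ⟨w, hw, rfl⟩).symm
    refine ⟨2, Subtype.ext ?_⟩
    show g ^ 2 ^ 2 = 1
    have h2 : g ^ 2 ^ 2 = (g * g) * (g * g) := by
      norm_num
      rw [show (4 : ℕ) = 2 + 2 from rfl, pow_add, pow_two]
    rw [h2]
    rcases hW with hW | hW
    · exact four c g (fun v hv => h1 v (hW hv))
    · exact four c.symm g (fun v hv => h1 v (hW hv))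
  have fin : ∀ {W : Subgroup ↥K}, W ≤ S₁ → (V₁ ≤ W ∨ V₂ ≤ W) → (∀ w ∈ W, φ x w = w) →
      (∀ g : G, g * x = x * g → W.map (φ g).toMonoidHom = W) → False := by
    intro W hWS hWV hWx hWn
    apply h.x_bad
    refine cp_of (W := W.map K.subtype) ?_ ?_ ((S₁.isPGroup'.to_le hWS).map _) (cent2 hWV)
    · rintro _ ⟨w, hw, rfl⟩
      rw [mem_centralizer_singleton_iff]
      have h1 := congrArg Subtype.val (hWx w hw)
      rw [φv] at h1
      exact (mul_inv_eq_iff_eq_mul.1 h1).symm
    · intro g hg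
      rw [mem_centralizer_singleton_iff] at hg
      exact (φnorm g).2 (hWn g hg)
  have vi : ∀ {A B : Subgroup ↥K} {t s t' s' : ↥K}, Cfg (S₁ : Subgroup ↥K) A B z t s t' s' →
      (∀ k, φ x k = k ↔ k ∈ normalizer (A : Set ↥K)) → False := by
    intro A B t s t' s' d hfix
    have hA : V₁ ≤ A ∨ V₂ ≤ A := by
      rcases c.le_or d.h1.le d.h1.sq with h2 | h2
      · exact Or.inl (eq_of_le_of_card_ge h2 (by rw [c.h1.card, d.h1.card])).ge
      · exact Or.inr (eq_of_le_of_card_ge h2 (by rw [c.h2.card, d.h1.card])).ge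
    refine fin (W := A) d.h1.le hA ?_ ?_
    · intro w hw
      rw [hfix]
      exact le_normalizer hw
    · intro g hg
      have h2 : (normalizer (A : Set ↥K)).map (φ g).toMonoidHom = normalizer (A : Set ↥K) := by
        apply mapeq
        intro k hk
        rw [← hfix] at hk ⊢
        have h3 : φ x (φ g k) = φ (x * g) k := by rw [map_mul]; rfl
        rw [h3, ← hg, map_mul]
        show φ g (φ x k) = φ g k
        rw [hk]
      have h3 : normalizer ((A.map (φ g).toMonoidHom : Subgroup ↥K) : Set ↥K) = normalizer (A : Set ↥K) := by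
        rw [← map_norm]
        exact h2
      have h4 : A.map (φ g).toMonoidHom ≤ A := by
        refine d.le_V (le_syl (N := normalizer (A : Set ↥K)) d.h1.n (d.V_p.map _) h3.ge) h3.ge
      apply mapeq
      intro w hw
      exact h4 ⟨w, hw, rfl⟩
  rcases c.fix_cases m1 m2 (hφS x (hYS hxY)) hx1 with h1 | h1 | h1
  · -- `x = z`
    refine fin (W := (S₁ : Subgroup ↥K)) le_rfl (Or.inl c.h1.le) ?_ ?_
    · intro w hw
      rw [h1, ← c.sz hw]
      group
    · intro g hg
      have h2 : x = (z : G) := by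
        have h3 := hK1 ((z : G)⁻¹ * x) (by
          intro k
          rw [map_mul]
          show φ ((z : G)⁻¹) (φ x k) = k
          rw [h1]
          apply Subtype.ext
          rw [φv]
          push_cast
          group)
        rw [inv_mul_eq_one] at h3
        exact h3.symm
      apply mapeq
      apply czS
      apply Subtype.ext
      rw [φv, ← h2, hg]
      group
  · exact vi c h1
  · exact vi c.symm h1

end

end Cfsg.Agent.H22.Tall
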