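import Cfsg.Agent.H22.Tall.Cfg

/-!
# S2927: the configuration as a component (helper22)
-/

set_option autoImplicit false
set_option linter.unusedSectionVars false

namespace Cfsg.Agent.H22.Tall

open Subgroup Cfsg
open Cfsg.Agent.H226.Tall
open Cfsg.Agent.Lib.Cores

universe u

variable {K : Type u} [Group K] [Finite K] {S₁ : Sylow 2 K} {V₁ V₂ : Subgroup K} {z t₁ s₁ t₂ s₂ : K}

theorem le_syl {W N : Subgroup K} (hS : (S₁ : Subgroup K) ≤ N) (hW : IsPGroup 2 W) (hn : N ≤ normalizer (W : Set K)) :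
    W ≤ S₁ := by
  have h1 : IsPGroup 2 ↥(W ⊔ (S₁ : Subgroup K)) := hW.to_sup_of_normal_left' S₁.isPGroup' (hS.trans hn)
  have h2 := S₁.is_maximal' h1 le_sup_right
  rw [← h2]
  exact le_sup_left

theorem norm_O2 (N : Subgroup K) : N ≤ normalizer (O2 N : Set K) := by
  intro g hg
  rw [mem_normalizer_iff]
  intro y
  constructor
  · rintro ⟨w, hw, rfl⟩
    exact ⟨⟨g, hg⟩ * w * ⟨g, hg⟩⁻¹, (Lib.Cores.pCore_normal 2).conj_mem w hw ⟨g, hg⟩, rfl⟩
  · rintro ⟨w, hw, hwy⟩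
    refine ⟨⟨g, hg⟩⁻¹ * w * ⟨g, hg⟩⁻¹⁻¹, (Lib.Cores.pCore_normal 2).conj_mem w hw (⟨g, hg⟩⁻¹ : _), ?_⟩
    change g⁻¹ * (w : K) * g⁻¹⁻¹ = y
    have hwy' : (w : K) = g * y * g⁻¹ := hwy
    rw [hwy']
    group

theorem O2_p (N : Subgroup K) : IsPGroup 2 ↥(O2 N) := (pCore_isPGroup 2).map _

theorem O2_le (N : Subgroup K) : O2 N ≤ N := by
  rintro y ⟨w, -, rfl⟩
  exact w.2

/-- a normal 2-subgroup of `N` is in `O₂(N)` -/
theorem le_O2 {W N : Subgroup K} (hWN : W ≤ N) (hn : N ≤ normalizer (W : Set K)) (hp : IsPGroup 2 W) : W ≤ O2 N := by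
  have h1 : (W.subgroupOf N).Normal := (normal_subgroupOf_iff_le_normalizer hWN).2 hn
  have h2 : IsPGroup 2 ↥(W.subgroupOf N) := hp.comap_of_injective N.subtype N.subtype_injective
  intro w hw
  exact ⟨⟨w, hWN hw⟩, le_pCore h1 h2 hw, rfl⟩

theorem Cfg.V_p (c : Cfg (S₁ : Subgroup K) V₁ V₂ z t₁ s₁ t₂ s₂) : IsPGroup 2 V₁ :=
  S₁.isPGroup'.to_le c.h1.le

theorem Cfg.O2_eq (c : Cfg (S₁ : Subgroup K) V₁ V₂ z t₁ s₁ t₂ s₂) : O2 (normalizer (V₁ : Set K)) = V₁ := by
  apply le_antisymm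
  · exact c.le_V (le_syl (N := normalizer (V₁ : Set K)) c.h1.n (O2_p _) (norm_O2 _)) (norm_O2 _)
  · exact le_O2 le_normalizer le_rfl c.V_p

theorem Cfg.V_ne (c : Cfg (S₁ : Subgroup K) V₁ V₂ z t₁ s₁ t₂ s₂) : V₁ ≠ ⊥ := by
  intro h
  exact c.h1.z_ne (mem_bot.1 (h ▸ c.h1.zV))

theorem Cfg.N_ne (c : Cfg (S₁ : Subgroup K) V₁ V₂ z t₁ s₁ t₂ s₂) :
    normalizer (V₁ : Set K) ≠ normalizer (V₂ : Set K) := by
  intro h
  apply c.not_norm
  rw [← c.sup_eq]
  refine sup_norm c.h1.tn ?_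
  rw [← h]
  exact c.h1.tn

theorem map_norm {V : Subgroup K} (α : MulAut K) :
    (normalizer (V : Set K)).map α.toMonoidHom = normalizer ((V.map α.toMonoidHom : Subgroup K) : Set K) := by
  ext y
  constructor
  · rintro ⟨g, hg, rfl⟩
    have hg' := mem_normalizer_iff.1 hg
    rw [mem_normalizer_iff]
    intro w
    constructor
    · rintro ⟨v, hv, rfl⟩
      refine ⟨g * v * g⁻¹, (hg' v).1 hv, ?_⟩
      rw [map_mul, map_mul, map_inv]
    · rintro ⟨v, hv, h⟩
      refine ⟨g⁻¹ * v * g, ?_, ?_⟩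
      · apply (hg' _).2
        have : g * (g⁻¹ * v * g) * g⁻¹ = v := by group
        rw [this]
        exact hv
      · rw [map_mul, map_mul, h, map_inv]
        group
  · intro hy
    have hy' := mem_normalizer_iff.1 hy
    refine ⟨α.symm y, ?_, α.apply_symm_apply y⟩
    rw [SetLike.mem_coe, mem_normalizer_iff]
    intro w
    have h1 := hy' (α w)
    constructor
    · intro hw
      obtain ⟨v, hv, h2⟩ := h1.1 ⟨w, hw, rfl⟩
      have h3 : α.symm y * w * (α.symm y)⁻¹ = v := by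
        apply α.injective
        rw [map_mul, map_mul, map_inv, α.apply_symm_apply]
        exact h2.symm
      rw [h3]
      exact hv
    · intro hw
      obtain ⟨v, hv, h2⟩ := h1.2 ⟨_, hw, by
        show α (α.symm y * w * (α.symm y)⁻¹) = y * α w * y⁻¹
        rw [map_mul, map_mul, map_inv, α.apply_symm_apply]⟩
      rw [← α.injective h2]
      exact hv

/-- **The configuration is not a component.** -/
theorem Cfg.no2 (c : Cfg (S₁ : Subgroup K) V₁ V₂ z t₁ s₁ t₂ s₂) {P V : Subgroup (MulAut K)} (h : Fib S₁ P V) :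
    False := by
  have hPV : ∀ α ∈ P, V₁.map α.toMonoidHom = V₁ ∧ V₂.map α.toMonoidHom = V₂ := by
    intro α hα
    refine (c.aut_V (h.P_norm α hα)).resolve_right ?_
    rintro ⟨h1, h2⟩
    obtain ⟨R, hne, hR, hinv, hloc⟩ := h.loc
    have hn : (S₁ : Subgroup K) ≤ normalizer (R : Set K) := by
      intro s hs
      rw [mem_normalizer_iff]
      intro r
      constructor
      · exact fun hr => hinv _ (h.conj_mem s hs) r hr
      · intro hr
        have h3 := hinv _ (h.conj_mem s⁻¹ (inv_mem hs)) _ hr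
        rw [MulAut.conj_apply] at h3
        have h4 : s⁻¹ * (s * r * s⁻¹) * s⁻¹⁻¹ = r := by group
        rwa [h4] at h3
    apply hloc
    rcases c.no_swap hne hR hn (hinv α hα) h1 h2 with h3 | ⟨h3, h4⟩
    · rw [h3]
    · have h5 : normalizer (R : Set K) ≤ centralizer ({z} : Set K) := by
        intro g hg
        rw [mem_centralizer_singleton_iff]
        have h6 := (mem_normalizer_iff.1 hg z).1 h3
        rcases h4 _ h6 (by
          calc g * z * g⁻¹ * (g * z * g⁻¹) = g * (z * z) * g⁻¹ := by group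
            _ = 1 := by rw [c.h1.sq z c.h1.zV]; group) with h7 | h7
        · exfalso
          rw [mul_inv_eq_one] at h7
          exact c.h1.z_ne (mul_eq_left.1 h7)
        · exact mul_inv_eq_iff_eq_mul.1 h7
      rw [c.cz] at h5
      exact h5.trans le_normalizer
  have hinv1 : ∀ {W : Subgroup K}, (∀ α ∈ P, W.map α.toMonoidHom = W) → ∀ α ∈ P, ∀ r ∈ W, α r ∈ W := by
    intro W hW α hα r hr
    have : α r ∈ W.map α.toMonoidHom := ⟨r, hr, rfl⟩
    rwa [hW α hα] at this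
  -- the action of `V`
  have hV1 : ∀ y ∈ V, ∀ v ∈ V₁, y v = v := by
    intro y hy
    have h1 := h.V_loc V₁ c.V_ne c.h1.le (hinv1 fun α hα => (hPV α hα).1) y hy t₁ c.h1.tn
    rw [c.O2_eq] at h1
    exact c.h1.fix (c.aut_z (h.P_norm y (h.V_le hy))) h1
  have hV2 : ∀ y ∈ V, ∀ v ∈ V₂, y v = v := by
    intro y hy
    have h1 := h.V_loc V₂ c.symm.V_ne c.h2.le (hinv1 fun α hα => (hPV α hα).2) y hy t₂ c.h2.tn
    rw [c.symm.O2_eq] at h1
    exact c.h2.fix (c.aut_z (h.P_norm y (h.V_le hy))) h1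
  obtain ⟨y, hy, s, hs, hne⟩ := h.act (normalizer (V₁ : Set K)) (normalizer (V₂ : Set K)) c.N_ne c.h1.n c.h2.n
    (c.top (c.h1.n.trans le_sup_left) (mem_sup_left c.h1.tn) (mem_sup_right c.h2.tn))
    (by rw [c.O2_eq]; exact c.V_ne) (by rw [c.symm.O2_eq]; exact c.symm.V_ne)
    (by
      intro α hα
      rw [map_norm, map_norm, (hPV α hα).1, (hPV α hα).2]
      exact ⟨rfl, rfl⟩)
    (by
      intro α hα
      rw [map_norm, map_norm]
      rcases c.aut_V hα with ⟨h1, h2⟩ | ⟨h1, h2⟩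
      · left
        rw [h1, h2]
        exact ⟨rfl, rfl⟩
      · right
        rw [h1, h2]
        exact ⟨rfl, rfl⟩)
  apply hne
  have h5 : (S₁ : Subgroup K) ≤ (y.toMonoidHom).eqLocus (MonoidHom.id K) := by
    rw [← c.sup_eq]
    exact sup_le (hV1 y hy) (hV2 y hy)
  exact h5 hs

end Cfsg.Agent.H22.Tall
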